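import Cfsg.Agent.R2.T1.N6L.Bc
import Cfsg.Agent.R2.H28.SL2.SqTab
import Cfsg.Agent.R2.H28.SL2.Gen2

/-!
# S5929, n = 6, p = 3: descent of the irreducible modules of `SL(2, q)` (helper14)

* `Dm_bc`, `SS_bc` : the operators on the base change;
* `isV_bc` : the base change of `V_b` is `V_b`;
* `exists_sub_isV` : a nonzero module over a field containing `F_q` has a submodule `V_b`.
-/

set_option autoImplicit false
set_option linter.unusedSectionVars false

namespace Cfsg.Agent.R2.T1.N6L

open Matrix Module TensorProduct Cfsg.Agent.H943.SL2Rel Cfsg.Agent.H943.SL2Mod Cfsg.Agent.H943.RepAdd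
open Cfsg.Agent.R2.H28.SL2

universe u v w x

variable {k : Type u} [Field k] {R : Type w} [Field R] [Fintype R] [DecidableEq R] (ι : R →+* k)
variable (K : Type x) [Field K] [Algebra k K]
variable {V : Type v} [AddCommGroup V] [Module k V] (σ : Representation k (SpecialLinearGroup (Fin 2) R) V)

theorem Dm_bc (m : ℕ) : Dm ((algebraMap k K).comp ι) (bcRep K σ) m = (Dm ι σ m).baseChange K := by
  refine LinearMap.ext fun y => ?_
  induction y using TensorProduct.induction_on with
  | zero => rw [map_zero, map_zero]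
  | add y z hy hz => rw [map_add, map_add, hy, hz]
  | tmul a y =>
    rw [Dm_apply, LinearMap.baseChange_tmul, Dm_apply, TensorProduct.tmul_neg, TensorProduct.tmul_sum]
    congr 1
    refine Finset.sum_congr rfl fun t _ => ?_
    rw [bcRep_tmul, TensorProduct.tmul_smul, RingHom.comp_apply, ← map_pow, algebraMap_smul]

theorem SS_bc : SS (bcRep K σ) = (SS σ).baseChange K := by
  refine LinearMap.ext fun y => ?_
  induction y using TensorProduct.induction_on with
  | zero => rw [map_zero, map_zero]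
  | add y z hy hz => rw [map_add, map_add, hy, hz]
  | tmul a y =>
    rw [SS_apply, LinearMap.baseChange_tmul, SS_apply, TensorProduct.tmul_sum]
    refine Finset.sum_congr rfl fun t _ => ?_
    rw [bcRep_tmul, bcRep_tmul]

theorem cb_map (b : ℕ) : algebraMap k K (cb k R b) = cb K R b := by
  unfold cb
  split_ifs
  · exact map_zero _
  · rw [map_neg, map_one]

theorem Bf_eq (p : ℕ) [Fact p.Prime] [DecidableEq k] [DecidableEq K] [CharP k p] [CharP K p] (b : ℕ) : Bf K b = Bf k b := by
  unfold Bf
  refine Finset.filter_congr fun m _ => ?_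
  rw [Ne, Ne, CharP.cast_eq_zero_iff K p, CharP.cast_eq_zero_iff k p]

variable [DecidableEq k] [DecidableEq K] (p : ℕ) [Fact p.Prime] [CharP k p] [CharP R p] [CharP K p]

/-- **the base change of `V_b`** -/
theorem isV_bc {a : ℕ} (hF : Fintype.card R = p ^ a) {b : ℕ} (h : IsV ι p σ b) :
    IsV ((algebraMap k K).comp ι) p (bcRep K σ) b := by
  have hfin := h.finite
  have hb : b ≤ Fintype.card R - 1 := h.choose
  obtain ⟨m, hm0, hmu, hmh, hmS, hmD, hfr, hmuniq⟩ := h.hw2
  -- the model over `K`
  have h1 : IsV ((algebraMap k K).comp ι) p (RB ((algebraMap k K).comp ι) p hb) b :=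
    ⟨hb, LinearEquiv.refl K _, fun g y => rfl⟩
  obtain ⟨m', hm'0, hm'u, -, -, -, hfr', -⟩ := h1.hw2
  have hirr := h1.irr
  have hfin1 := h1.finite
  obtain ⟨f, hf, hfm⟩ := gen_hw ((algebraMap k K).comp ι) p (bcRep K σ) hF h1 hm'0 hm'u (x := (1 : K) ⊗ₜ[k] m)
    (fun t => by rw [bcRep_tmul, hmu])
    (fun t => by
      rw [bcRep_tmul, hmh, TensorProduct.tmul_smul, RingHom.comp_apply, ← map_pow (algebraMap k K), algebraMap_smul])
    (by
      rw [SS_bc, LinearMap.baseChange_tmul, hmS, TensorProduct.tmul_smul, ← cb_map (k := k) (R := R) K b,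
        algebraMap_smul])
    (fun i hi hlt => by
      have hp : p.Prime := Fact.out
      rw [Dm_bc, bcRep_tmul, LinearMap.baseChange_tmul, hmD (en p b i) (en_pos hp.pos)
        (by rw [hF]; exact en_le hp.pos hi hlt) (dvd_choose_en hp hlt), TensorProduct.tmul_zero])
  have hm10 : (1 : K) ⊗ₜ[k] m ≠ 0 := fun h0 => hm0 (by
    have h3 := Module.Flat.tensorProduct_mk_injective k V K
    exact h3 (by rw [map_zero]; exact h0))
  have hf0 : f ≠ 0 := by
    rintro rfl
    rw [LinearMap.zero_apply] at hfm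
    exact hm10 hfm.symm
  have hker : LinearMap.ker f = ⊥ := by
    rcases hirr.2 (LinearMap.ker f) (fun g y hy => by
      rw [LinearMap.mem_ker] at hy ⊢
      rw [hf, hy, map_zero]) with h3 | h3
    · exact h3
    · exact absurd (LinearMap.ker_eq_top.1 h3) hf0
  have hinj := LinearMap.ker_eq_bot.1 hker
  have hdim : finrank K (Vb ((algebraMap k K).comp ι) b) = finrank K (K ⊗[k] V) := by
    rw [hfr', Module.finrank_baseChange, hfr, Bf_eq (k := k) K p]
  exact IsV.iso _ p (LinearEquiv.ofBijective f ⟨hinj, (LinearMap.injective_iff_surjective_of_finrank_eq_finrank hdim).1 hinj⟩)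
    (fun g y => hf g y) h1

omit [DecidableEq K] [CharP K p] [Algebra k K] [Field K] in
/-- **a submodule `V_b`** -/
theorem exists_sub_isV {a : ℕ} (hF : Fintype.card R = p ^ a) [FiniteDimensional k V] [Nontrivial V] :
    ∃ (b : ℕ) (S : Submodule k V) (hS : ∀ g, ∀ y ∈ S, σ g y ∈ S), S ≠ ⊥ ∧ IsV ι p (subRep σ S hS) b := by
  classical
  let K := AlgebraicClosure k
  have hK : CharP K p := charP_of_injective_algebraMap (algebraMap k K).injective p
  have hnt : Nontrivial (K ⊗[k] V) := inferInstance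
  obtain ⟨b, X, hX, hb⟩ := exists_inSoc ((algebraMap k K).comp ι) p (bcRep K σ)
  have hbq : b ≤ Fintype.card R - 1 := hb.choose
  obtain ⟨m, hm0, hmu, hmh, hmS, hmD, -, -⟩ := hb.hw2
  have hp : p.Prime := Fact.out
  -- the linear conditions
  let f : R ⊕ (Rˣ ⊕ (Unit ⊕ {i : Fin a // b / p ^ i.1 % p + 1 < p})) → V →ₗ[k] V :=
    Sum.elim (fun t => σ (u t) - 1) (Sum.elim (fun s => σ (h s) - ι s ^ b • (1 : Module.End k V))
      (Sum.elim (fun _ => SS σ - cb k R b • (1 : Module.End k V)) (fun i => Dm ι σ (en p b i.1) ∘ₗ σ w)))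
  have hne : (⨅ j, LinearMap.ker ((f j).baseChange K)) ≠ ⊥ := by
    intro h0
    apply hm0
    have h1 : (m : K ⊗[k] V) ∈ ⨅ j, LinearMap.ker ((f j).baseChange K) := by
      rw [Submodule.mem_iInf]
      intro j
      rw [LinearMap.mem_ker]
      rcases j with t | s | _ | i
      · show (LinearMap.baseChange K (σ (u t) - 1)) (m : K ⊗[k] V) = 0
        rw [LinearMap.baseChange_sub, LinearMap.baseChange_one k V, LinearMap.sub_apply, sub_eq_zero]
        exact congrArg Subtype.val (hmu t)
      · show (LinearMap.baseChange K (σ (h s) - ι s ^ b • (1 : Module.End k V))) (m : K ⊗[k] V) = 0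
        rw [LinearMap.baseChange_sub, LinearMap.baseChange_smul, LinearMap.baseChange_one k V, LinearMap.sub_apply,
          sub_eq_zero, LinearMap.smul_apply, Module.End.one_apply]
        have h2 := congrArg Subtype.val (hmh s)
        rw [RingHom.comp_apply, ← map_pow (algebraMap k K)] at h2
        exact h2.trans (algebraMap_smul K _ _)
      · show (LinearMap.baseChange K (SS σ - cb k R b • (1 : Module.End k V))) (m : K ⊗[k] V) = 0
        rw [LinearMap.baseChange_sub, LinearMap.baseChange_smul, LinearMap.baseChange_one k V, LinearMap.sub_apply,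
          sub_eq_zero, LinearMap.smul_apply, Module.End.one_apply, ← SS_bc]
        have h2 := congrArg Subtype.val hmS
        rw [SS_apply] at h2
        rw [SS_apply]
        push_cast at h2
        rw [← cb_map (k := k) (R := R) K b] at h2
        exact h2.trans (algebraMap_smul K _ _)
      · show (LinearMap.baseChange K (Dm ι σ (en p b i.1) ∘ₗ σ w)) (m : K ⊗[k] V) = 0
        rw [LinearMap.baseChange_comp, ← Dm_bc, LinearMap.comp_apply]
        have h2 := congrArg Subtype.val (hmD (en p b i.1) (en_pos hp.pos)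
          (by rw [hF]; exact en_le hp.pos i.1.2 i.2) (dvd_choose_en hp i.2))
        rw [Dm_apply] at h2
        rw [Dm_apply]
        push_cast at h2
        exact h2
    rw [h0, Submodule.mem_bot] at h1
    exact Subtype.ext h1
  have hne' := iInf_ne_bot_of_bc hne
  obtain ⟨y, hy, hy0⟩ := Submodule.exists_mem_ne_zero_of_ne_bot hne'
  rw [Submodule.mem_iInf] at hy
  -- the model
  have h1 : IsV ι p (RB ι p hbq) b := ⟨hbq, LinearEquiv.refl k _, fun g y => rfl⟩
  obtain ⟨m', hm'0, hm'u, -⟩ := h1.hw2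
  have hirr := h1.irr
  obtain ⟨φ, hφ, hφm⟩ := gen_hw ι p σ hF h1 hm'0 hm'u (x := y)
    (fun t => by
      have h2 : (σ (u t) - 1) y = 0 := hy (Sum.inl t)
      rw [LinearMap.sub_apply, sub_eq_zero] at h2
      exact h2)
    (fun s => by
      have h2 : (σ (h s) - ι s ^ b • (1 : Module.End k V)) y = 0 := hy (Sum.inr (Sum.inl s))
      rw [LinearMap.sub_apply, sub_eq_zero] at h2
      exact h2)
    (by
      have h2 : (SS σ - cb k R b • (1 : Module.End k V)) y = 0 := hy (Sum.inr (Sum.inr (Sum.inl ())))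
      rw [LinearMap.sub_apply, sub_eq_zero] at h2
      exact h2)
    (fun i hi hlt => hy (Sum.inr (Sum.inr (Sum.inr ⟨⟨i, hi⟩, hlt⟩))))
  have hφ0 : φ ≠ 0 := by
    rintro rfl
    exact hy0 hφm.symm
  have hker : LinearMap.ker φ = ⊥ := by
    rcases hirr.2 (LinearMap.ker φ) (fun g z hz => by
      rw [LinearMap.mem_ker] at hz ⊢
      rw [hφ, hz, map_zero]) with h3 | h3
    · exact h3
    · exact absurd (LinearMap.ker_eq_top.1 h3) hφ0
  have hinj := LinearMap.ker_eq_bot.1 hker
  have hS : ∀ g, ∀ z ∈ LinearMap.range φ, σ g z ∈ LinearMap.range φ := by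
    rintro g _ ⟨z, rfl⟩
    exact ⟨_, hφ g z⟩
  refine ⟨b, LinearMap.range φ, hS, fun h0 => hφ0 (LinearMap.range_eq_bot.1 h0), ?_⟩
  exact IsV.iso ι p (LinearEquiv.ofInjective φ hinj) (fun g z => Subtype.ext (hφ g z)) h1

end Cfsg.Agent.R2.T1.N6L
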