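import Cfsg.Agent.R2.T1.N6L.MuE

/-!
# S5929, n = 6, p = 3: multiplicities of the irreducible modules (helper11)

`mu_any`, `mu_isV`.
-/

set_option autoImplicit false
set_option linter.unusedSectionVars false

namespace Cfsg.Agent.R2.T1.N6L

open Matrix Cfsg.Agent.H943.SL2Rel Cfsg.Agent.H943.SL2Mod Cfsg.Agent.H943.RepAdd Cfsg.Agent.R2.H28.SL2
open Cfsg.Agent.H179.SLC (IsSS fx mem_fx)
open Cfsg.Agent.H952.F4 (ev es)
open Cfsg.Agent.R2.T1

universe u v w

variable {K : Type u} [Field K] [DecidableEq K] [IsAlgClosed K] [CharP K 3]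
  {π : SpecialLinearGroup (Fin 2) F9 →* ↥(alternatingGroup (Fin 6))} (hs : Function.Surjective π)
  (hk : ∀ g, π g = 1 ↔ g = 1 ∨ g = -1) (ι : F9 →+* K) {M : Type v} [AddCommGroup M] [Module K M]
  [FiniteDimensional K M] (ρ : Representation K ↥(alternatingGroup (Fin 6)) M)

include hs hk in
/-- the multiplicities, for any embedding -/
theorem mu_any {n : ℕ → ℕ} (H : IsMult ι 3 2 (MonoidHom.comp ρ π : Representation K _ M) n) {τ : K}
    (hτ : τ * τ + τ - 1 = 0) {a : ↥(alternatingGroup (Fin 6))} (ha : orderOf a = 5) :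
    Mu ρ τ a (n 0) (n 2) (n 6) (n 4) (n 8) ∨ Mu ρ τ a (n 0) (n 6) (n 2) (n 4) (n 8) := by
  obtain ⟨g, ζ, rfl, hss, hζ⟩ := lift5 ι card_F9 hs hk ha
  have h1 := mu_of ι ρ card_F9 hs hk H hss hζ
  rcases tau_cases hζ hτ with rfl | rfl
  · exact Or.inr h1.2
  · exact Or.inl h1.1

include hs hk in
/-- the irreducible modules -/
theorem mu_isV {b : ℕ} (h : IsV ι 3 (MonoidHom.comp ρ π : Representation K _ M) b) {τ : K}
    (hτ : τ * τ + τ - 1 = 0) {a : ↥(alternatingGroup (Fin 6))} (ha : orderOf a = 5) :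
    Mu ρ τ a 1 0 0 0 0 ∨ Mu ρ τ a 0 1 0 0 0 ∨ Mu ρ τ a 0 0 1 0 0 ∨ Mu ρ τ a 0 0 0 1 0 ∨ Mu ρ τ a 0 0 0 0 1 := by
  obtain ⟨hb, φ, hφ⟩ := h
  have H := isMult_rb ι 3 card_F9' hb (MonoidHom.comp ρ π : Representation K _ M) φ hφ
  have hb9 : b < 9 := by
    have h1 := hb
    rw [card_F9] at h1
    omega
  have hodd : b % 2 = 0 := by
    by_contra hne
    have h1 := odd_zero ι ρ hk H (b := b) (by omega)
    rw [Pi.single_eq_same] at h1
    omega
  have hcases : b = 0 ∨ b = 2 ∨ b = 4 ∨ b = 6 ∨ b = 8 := by omega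
  have h2 := mu_any hs hk ι ρ H hτ ha
  rcases hcases with rfl | rfl | rfl | rfl | rfl
  · left
    rcases h2 with h2 | h2
    · simpa using h2
    · simpa using h2
  · rcases h2 with h2 | h2
    · right; left
      simpa using h2
    · right; right; left
      simpa using h2
  · right; right; right; left
    rcases h2 with h2 | h2
    · simpa using h2
    · simpa using h2
  · rcases h2 with h2 | h2
    · right; right; left
      simpa using h2
    · right; left
      simpa using h2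
  · right; right; right; right
    rcases h2 with h2 | h2
    · simpa using h2
    · simpa using h2

end Cfsg.Agent.R2.T1.N6L
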