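import Cfsg.Agent.R2.T1.N6L.Pr4

/-!
# S5929, n = 6, p = 3: C3, over an algebraically closed field (helper11)

`no_self` : a self-dual module with factors `V_0`, `V_2`, `V_4`, `V_6` and socle of type `V_4` has more factors `V_4` than
`V_6`.
-/

set_option autoImplicit false
set_option linter.unusedSectionVars false

namespace Cfsg.Agent.R2.T1.N6L

open Matrix Cfsg.Agent.H943.SL2Rel Cfsg.Agent.H943.SL2Mod Cfsg.Agent.H943.RepAdd Cfsg.Agent.R2.H28.SL2

universe u v w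

variable {k : Type u} [Field k] [DecidableEq k] {F : Type w} [Field F] [Fintype F] [DecidableEq F] (ι : F →+* k)
variable [CharP k 3] [CharP F 3] (hF : Fintype.card F = 3 ^ 2) [IsAlgClosed k]

include hF in
/-- **C3** -/
theorem no_self {V : Type v} [AddCommGroup V] [Module k V] [FiniteDimensional k V] [Nontrivial V]
    {ρ : Representation k (SpecialLinearGroup (Fin 2) F) V} {B : V →ₗ[k] V →ₗ[k] k} (D : Dul ρ ρ B)
    (hall : ∀ b ∈ cf (Sy.{u, v, w} ι 3) ρ, b = 0 ∨ b = 2 ∨ b = 4 ∨ b = 6)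
    (h0 : ¬ InSoc ι 3 ρ 0) (h2 : ¬ InSoc ι 3 ρ 2) (h6 : ∀ x ∈ Aw ι ρ 6 1, x = 0)
    (hle : (cf (Sy.{u, v, w} ι 3) ρ).count 4 ≤ (cf (Sy.{u, v, w} ι 3) ρ).count 6) : False := by
  obtain ⟨c, hc⟩ := exists_inSoc ι 3 ρ
  have hcm := InSoc.mem_cf ι 3 hc
  have hc4 : c = 4 := by
    rcases hall c hcm with rfl | rfl | rfl | rfl
    · exact absurd hc h0
    · exact absurd hc h2
    · rfl
    · exfalso
      obtain ⟨X, hX, hb⟩ := hc
      obtain ⟨m, hm0, hm⟩ := hw_Aw ι hF (subRep ρ X hX) ce6 hb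
      exact hm0 (Subtype.ext (h6 _ (Aw_map ι (subRep ρ X hX) ρ X.subtype (fun g x => rfl) hm)))
  subst hc4
  obtain ⟨X, hX, hb⟩ := hc
  obtain ⟨B', D', -⟩ := D.sub hX
  have hq : IsV ι 3 (quotRep ρ (orth B X) (D.orth_inv hX)) 4 := IsV.dual ι 3 hb D'
  have hadd := cf_add (Sy.{u, v, w} ι 3) ρ (orth B X) (D.orth_inv hX)
  rw [cf_irr (Sy.{u, v, w} ι 3) hq] at hadd
  have hp := press6 ι hF (subRep ρ (orth B X) (D.orth_inv hX)) fun b hb' => hall b (by
    rw [hadd]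
    exact Multiset.mem_add.2 (Or.inl hb'))
  have hA : Aw ι (subRep ρ (orth B X) (D.orth_inv hX)) 6 1 = ⊥ := by
    rw [eq_bot_iff]
    intro x hx
    rw [Submodule.mem_bot]
    exact Subtype.ext (h6 _ (Aw_map ι (subRep ρ (orth B X) (D.orth_inv hX)) ρ (orth B X).subtype (fun g x => rfl) hx))
  rw [hA, finrank_bot, zero_add] at hp
  rw [hadd, Multiset.count_add, Multiset.count_add, Multiset.count_singleton, Multiset.count_singleton,
    if_pos rfl, if_neg (by norm_num)] at hle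
  omega

end Cfsg.Agent.R2.T1.N6L
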