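import Cfsg.Agent.R2.T1.N6L.Sc
import Cfsg.Agent.R2.T1.N6L.Dat
import Cfsg.Agent.R2.T1.N6R.Main
import Cfsg.Agent.R2.T1.N6D.Pos
import Cfsg.Agent.R2.T1.E5.Six

/-!
# S5929, n = 6, p = 3: the pattern `Q3` is impossible (helper14)

`noQ3` : the fixed spaces on the adjoint module have the dimensions 69, 39, 27, and `69 + 39 + 27 > 133`.
-/

set_option autoImplicit false

namespace Cfsg.Agent.R2.T1.N6L

open Cfsg Cfsg.Lie Module
open Cfsg.Agent.H943.E7V.Block (D1 rho)
open Cfsg.Agent.H952.F4 (ev es MaxAlt)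
open Cfsg.Agent.R2.T1

universe u

variable {F : Type u} [Field F]

/-- involutions -/
theorem l_two [Finite F] (h2 : (2 : F) ≠ 0) {x : Gh F} (hx : x ^ 2 = 1) (h : ev (V F x) 1 = 24 ∨ ev (V F x) 1 = 32) :
    ev (L F x) 1 = 69 := by
  obtain ⟨P, hP, h1, h3⟩ := patF chk2 (by exact_mod_cast h2) hx
  simp only [T2, List.mem_cons, List.not_mem_nil, or_false] at hP
  rcases hP with rfl | rfl | rfl | rfl
  all_goals simp only [List.getD_cons_zero] at h1 h3
  all_goals omega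

/-- elements of order 4 -/
theorem l_four [Finite F] (h2 : (2 : F) ≠ 0) {x : Gh F} (hx : x ^ 4 = 1) (h4 : ev (V F x) 1 = 12)
    (hs : ev (V F (x ^ 2)) 1 = 32) : ev (L F x) 1 = 39 := by
  have h4' : ((4 : ℕ) : F) ≠ 0 := by
    have : ((4 : ℕ) : F) = 2 * 2 := by norm_num
    rw [this]
    exact mul_ne_zero h2 h2
  obtain ⟨p, hpp, hp, hcop⟩ := exists_char h4'
  obtain ⟨ζ, hζ, P, hP, h5⟩ := pat chk4 (by norm_num) p hcop hx
  have hζ2 : ζ ^ 2 = -1 := by
    have h6 : ζ ^ 2 * ζ ^ 2 = 1 := by rw [← pow_add]; exact hζ.pow_eq_one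
    rcases mul_self_eq_one_iff.1 h6 with h7 | h7
    · exact absurd h7 (hζ.pow_ne_one_of_pos_of_lt (by norm_num) (by norm_num))
    · exact h7
  obtain ⟨h6, h7⟩ := h5 0 (by norm_num)
  have h8 := (h5 2 (by norm_num)).1
  rw [pow_zero] at h6 h7
  rw [ev_V_one, h4] at h6
  rw [ev_L_one] at h7
  rw [hζ2, ev_V_neg_one] at h8
  have h9 : ev (V F (x ^ 2)) 1 = ev (V F x) 1 + ev (V F x) (-1) := by
    rw [map_pow]
    exact E5.ev_sq h2 _
  simp only [T4, List.mem_cons, List.not_mem_nil, or_false] at hP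
  rw [h7]
  rcases hP with rfl | rfl | rfl | rfl | rfl | rfl | rfl | rfl | rfl | rfl | rfl | rfl | rfl | rfl | rfl
  all_goals simp only [List.getD_cons_zero, List.getD_cons_succ] at h6 h7 h8 ⊢
  all_goals omega

/-- elements of order 5 -/
theorem l_five [Finite F] (h5 : (5 : F) ≠ 0) {x : Gh F} (hx : x ^ 5 = 1) (h12 : ev (V F x) 1 = 12) {τ : F}
    (hτ : τ * τ + τ - 1 = 0) (hu : finrank F ↥(LinearMap.ker (Five.qd τ (V F x))) = 2 * 12) : ev (L F x) 1 = 27 := by
  obtain ⟨P, hP, h1, h2, h3⟩ := patF5 h5 hx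
  rw [h12] at h1
  have key : ∀ P ∈ T5, 12 = P.1.getD 0 0 → P.1.getD 1 0 ≠ P.1.getD 2 0 ∧
      ((12 = P.1.getD 1 0 ∨ 12 = P.1.getD 2 0) → P.2.getD 0 0 = 27) := by decide
  obtain ⟨k1, k2⟩ := key P hP h1
  rcases h3 with ⟨h4, -⟩ | ⟨t, h4, h6, -, h7, -⟩
  · exact absurd h4 k1
  · rw [h2]
    apply k2
    have h8 : (t - τ) * (t - (-1 - τ)) = 0 := by linear_combination h4 - hτ
    rcases mul_eq_zero.1 h8 with h9 | h9
    · rw [sub_eq_zero.1 h9, hu] at h6
      left
      omega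
    · rw [sub_eq_zero.1 h9, show -1 - (-1 - τ) = τ by ring, hu] at h7
      right
      omega

theorem ev_isConj {G : Type*} [Group G] {M : Type*} [AddCommGroup M] [Module F M] (ρ : Representation F G M) {x y : G}
    (h : IsConj x y) : ev (ρ y) 1 = ev (ρ x) 1 := by
  obtain ⟨c, rfl⟩ := isConj_iff.1 h
  exact N6D.ev_cj ρ c x

/-- **the pattern `Q3`** -/
theorem noQ3 [Finite F] (h3 : (3 : F) = 0) {ψ : ↥(alternatingGroup (Fin 6)) →* Gh F} {τ : F}
    {a b : ↥(alternatingGroup (Fin 6))} (hd : Dat ψ τ a b 32 12 12 12 10)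
    (hinv : Representation.invariants (MonoidHom.comp (L F) ψ) = ⊥) : False := by
  have h2 : (2 : F) ≠ 0 := by
    intro h2
    have h' : (1 : F) = 0 := by linear_combination h3 - h2
    exact one_ne_zero h'
  have h5 : (5 : F) ≠ 0 := by
    intro h5
    apply h2
    linear_combination h5 - h3
  obtain ⟨x, y, z, hx, hy, hz, hle⟩ := scott245L h2 hinv
  have hb2 : orderOf (b * b) = 2 := by
    rw [← pow_two, orderOf_pow_of_dvd (by norm_num) (by rw [hd.ob]; norm_num), hd.ob]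
  have e1 : ev (L F (ψ x)) 1 = 69 := by
    have hx2 : x ^ 2 = 1 := by rw [← hx, pow_orderOf_eq_one]
    refine l_two h2 (by rw [← map_pow, hx2, map_one]) (Or.inr ?_)
    rw [← hd.two]
    rcases N6R.cls6 (hb2.trans hx.symm) with h | h | ⟨h, -⟩
    · have := orderOf_dvd_of_pow_eq_one h
      rw [hb2] at this
      omega
    · exact ev_isConj (MonoidHom.comp (V F) ψ) h
    · omega
  have e2 : ev (L F (ψ y)) 1 = 39 := by
    have hy4 : y ^ 4 = 1 := by rw [← hy, pow_orderOf_eq_one]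
    have hc : IsConj b y := by
      rcases N6R.cls6 (hd.ob.trans hy.symm) with h | h | ⟨h, -⟩
      · have := orderOf_dvd_of_pow_eq_one h
        rw [hd.ob] at this
        omega
      · exact h
      · rw [hd.ob] at h
        omega
    refine l_four h2 (by rw [← map_pow, hy4, map_one]) ?_ ?_
    · rw [← hd.four]
      exact ev_isConj (MonoidHom.comp (V F) ψ) hc
    · rw [← hd.two, ← map_pow, pow_two]
      refine ev_isConj (MonoidHom.comp (V F) ψ) (x := b * b) (y := y * y) ?_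
      obtain ⟨c, rfl⟩ := isConj_iff.1 hc
      exact isConj_iff.2 ⟨c, by group⟩
  have e3 : ev (L F (ψ z)) 1 = 27 := by
    have ha5 : a ^ 5 = 1 := by rw [← hd.oa, pow_orderOf_eq_one]
    have ha5' : (ψ a) ^ 5 = 1 := by rw [← map_pow, ha5, map_one]
    have e : ev (L F (ψ a)) 1 = 27 := l_five h5 ha5' hd.five hd.hτ hd.qu
    rw [← e]
    rcases N6R.cls6 (hd.oa.trans hz.symm) with h | h | ⟨-, h⟩
    · have := orderOf_dvd_of_pow_eq_one h
      rw [hd.oa] at this
      omega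
    · exact ev_isConj (MonoidHom.comp (L F) ψ) h
    · exact (ev_isConj (MonoidHom.comp (L F) ψ) h).trans (N6D.ev_pow_five ha5 (MonoidHom.comp (L F) ψ))
  omega

end Cfsg.Agent.R2.T1.N6L
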